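import Cfsg.Agent.H907.Tri9.Pair
import Cfsg.Agent.H198.TriCls
import Cfsg.Agent.H206.OrthBal
import Cfsg.Agent.H752.SemiNormal

/-!
# TRI-9 of S2187: an elementary abelian group of order nine in the fixed points of a triality (octonions)
-/

set_option autoImplicit false

namespace Cfsg.Agent.H907.Tri9

open Module QuadraticMap Cfsg.Agent.LieClassical.OrthCore Cfsg.Agent.LieClassical.OrthTrans
  Cfsg.Agent.LieClassical.OrthSimple Cfsg.Agent.ClassicalGeometry.OrthAut1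
  Cfsg.Agent.ClassicalGeometry.OrthSemi Cfsg.Agent.H198.Classes
  Cfsg.Agent.LieClassical.QuadForms Cfsg.Agent.H198.ClassesPlus
  Cfsg.Agent.ClassicalGeometry.TrialityOct Cfsg.Agent.ClassicalGeometry.Triality
  Cfsg.Agent.ClassicalGeometry.TrialitySpaces Cfsg.Agent.H198.TriBase Cfsg.Agent.H198.TriAut
  Cfsg.Agent.H206.Balance Cfsg.Agent.H198.BalVar Cfsg.Agent.H198.TriDia

universe u

variable {F : Type u} [Field F]

/-! ### the elements `e₁`, `e₂` -/

/-- the first automorphism -/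
def f1 (F : Type u) [Field F] : V8 F →ₗ[F] V8 F where
  toFun x := Sum.elim ![x (.inr 0) - x (.inr 1), x (.inr 1), -x (.inl 2) + x (.inr 3), -x (.inl 3) - x (.inr 2)]
    ![x (.inl 0) + x (.inr 1), x (.inl 0) + x (.inl 1) - x (.inr 0) + x (.inr 1), x (.inl 3), -x (.inl 2)]
  map_add' x y := by
    apply ext8 <;> simp <;> ring
  map_smul' c x := by
    apply ext8 <;> simp <;> ring

/-- the second automorphism -/
def f2 (F : Type u) [Field F] : V8 F →ₗ[F] V8 F where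
  toFun x := Sum.elim ![x (.inl 0), x (.inl 1), -x (.inl 3), x (.inl 2) - x (.inl 3)]
    ![x (.inr 0), x (.inr 1), -x (.inr 2) - x (.inr 3), x (.inr 2)]
  map_add' x y := by
    apply ext8 <;> simp <;> ring
  map_smul' c x := by
    apply ext8 <;> simp <;> ring

section coords

variable (x : V8 F)

theorem f1_l0 : f1 F x (.inl 0) = x (.inr 0) - x (.inr 1) := rfl
theorem f1_l1 : f1 F x (.inl 1) = x (.inr 1) := rfl
theorem f1_l2 : f1 F x (.inl 2) = -x (.inl 2) + x (.inr 3) := rfl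
theorem f1_l3 : f1 F x (.inl 3) = -x (.inl 3) - x (.inr 2) := rfl
theorem f1_r0 : f1 F x (.inr 0) = x (.inl 0) + x (.inr 1) := rfl
theorem f1_r1 : f1 F x (.inr 1) = x (.inl 0) + x (.inl 1) - x (.inr 0) + x (.inr 1) := rfl
theorem f1_r2 : f1 F x (.inr 2) = x (.inl 3) := rfl
theorem f1_r3 : f1 F x (.inr 3) = -x (.inl 2) := rfl

theorem f2_l0 : f2 F x (.inl 0) = x (.inl 0) := rfl
theorem f2_l1 : f2 F x (.inl 1) = x (.inl 1) := rfl
theorem f2_l2 : f2 F x (.inl 2) = -x (.inl 3) := rfl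
theorem f2_l3 : f2 F x (.inl 3) = x (.inl 2) - x (.inl 3) := rfl
theorem f2_r0 : f2 F x (.inr 0) = x (.inr 0) := rfl
theorem f2_r1 : f2 F x (.inr 1) = x (.inr 1) := rfl
theorem f2_r2 : f2 F x (.inr 2) = -x (.inr 2) - x (.inr 3) := rfl
theorem f2_r3 : f2 F x (.inr 3) = x (.inr 2) := rfl

end coords

theorem f1_cube (x : V8 F) : f1 F (f1 F (f1 F x)) = x := by
  apply ext8 <;> simp only [f1_l0, f1_l1, f1_l2, f1_l3, f1_r0, f1_r1, f1_r2, f1_r3] <;> ring

theorem f2_cube (x : V8 F) : f2 F (f2 F (f2 F x)) = x := by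
  apply ext8 <;> simp only [f2_l0, f2_l1, f2_l2, f2_l3, f2_r0, f2_r1, f2_r2, f2_r3] <;> ring

theorem f_comm (x : V8 F) : f1 F (f2 F x) = f2 F (f1 F x) := by
  apply ext8 <;> simp only [f2_l0, f2_l1, f2_l2, f2_l3, f2_r0, f2_r1, f2_r2, f2_r3,
    f1_l0, f1_l1, f1_l2, f1_l3, f1_r0, f1_r1, f1_r2, f1_r3] <;> ring

theorem f1_omul (x y : V8 F) : f1 F (omul x y) = omul (f1 F x) (f1 F y) := by
  apply ext8 <;> simp only [f1_l0, f1_l1, f1_l2, f1_l3, f1_r0, f1_r1, f1_r2, f1_r3,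
    omul_l0, omul_l1, omul_l2, omul_l3, omul_r0, omul_r1, omul_r2, omul_r3] <;> ring

theorem f2_omul (x y : V8 F) : f2 F (omul x y) = omul (f2 F x) (f2 F y) := by
  apply ext8 <;> simp only [f2_l0, f2_l1, f2_l2, f2_l3, f2_r0, f2_r1, f2_r2, f2_r3,
    omul_l0, omul_l1, omul_l2, omul_l3, omul_r0, omul_r1, omul_r2, omul_r3] <;> ring

theorem f1_norm (x : V8 F) : plusForm 4 F (f1 F x) = plusForm 4 F x := by
  simp only [norm8, f1_l0, f1_l1, f1_l2, f1_l3, f1_r0, f1_r1, f1_r2, f1_r3]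
  ring

theorem f2_norm (x : V8 F) : plusForm 4 F (f2 F x) = plusForm 4 F x := by
  simp only [norm8, f2_l0, f2_l1, f2_l2, f2_l3, f2_r0, f2_r1, f2_r2, f2_r3]
  ring

theorem f1_fG (σ : F ≃+* F) (x : V8 F) : f1 F ((fG σ).1 x) = (fG σ).1 (f1 F x) := by
  apply ext8 <;> simp only [f1_l0, f1_l1, f1_l2, f1_l3, f1_r0, f1_r1, f1_r2, f1_r3, fG_apply, map_add, map_sub,
    map_neg]

theorem f2_fG (σ : F ≃+* F) (x : V8 F) : f2 F ((fG σ).1 x) = (fG σ).1 (f2 F x) := by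
  apply ext8 <;> simp only [f2_l0, f2_l1, f2_l2, f2_l3, f2_r0, f2_r1, f2_r2, f2_r3, fG_apply, map_sub,
    map_neg]

/-- a linear map of order three as an equivalence -/
def ofCube (f : V8 F →ₗ[F] V8 F) (h : ∀ x, f (f (f x)) = x) : V8 F ≃ₗ[F] V8 F :=
  { f with
    invFun := fun x => f (f x)
    left_inv := h
    right_inv := h }

theorem ofCube_apply (f : V8 F →ₗ[F] V8 F) (h : ∀ x, f (f (f x)) = x) (x : V8 F) : ofCube f h x = f x := rfl

/-- the linear octonion automorphisms -/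
def H8 (F : Type u) [Field F] : Subgroup (V8 F ≃ₗ[F] V8 F) where
  carrier := {g | g ∈ O (plusForm 4 F) ∧ ∀ u w, g (omul u w) = omul (g u) (g w)}
  mul_mem' := by
    rintro g h ⟨hg, hg'⟩ ⟨hh, hh'⟩
    refine ⟨mul_mem hg hh, fun u w => ?_⟩
    change g (h _) = omul (g (h u)) (g (h w))
    rw [hh', hg']
  one_mem' := ⟨one_mem _, fun _ _ => rfl⟩
  inv_mem' := by
    rintro g ⟨hg, hg'⟩
    refine ⟨inv_mem hg, fun u w => ?_⟩
    apply g.injective
    rw [hg']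
    change g (g.symm _) = omul (g (g.symm u)) (g (g.symm w))
    rw [LinearEquiv.apply_symm_apply, LinearEquiv.apply_symm_apply, LinearEquiv.apply_symm_apply]

def E1 (F : Type u) [Field F] : ↥(H8 F) := ⟨ofCube (f1 F) f1_cube, f1_norm, f1_omul⟩

def E2 (F : Type u) [Field F] : ↥(H8 F) := ⟨ofCube (f2 F) f2_cube, f2_norm, f2_omul⟩

theorem E1_apply (x : V8 F) : (E1 F).1 x = f1 F x := rfl

theorem E2_apply (x : V8 F) : (E2 F).1 x = f2 F x := rfl

theorem ext_H8 {g h : ↥(H8 F)} (e : ∀ x, g.1 x = h.1 x) : g = h := Subtype.ext (LinearEquiv.ext e)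

theorem pair_E : Pair3 (E1 F) (E2 F) where
  ha := ext_H8 fun x => f1_cube x
  hb := ext_H8 fun x => f2_cube x
  comm := ext_H8 fun x => f_comm x
  ne := by
    intro h
    have h1 := congrArg (fun g : ↥(H8 F) => g.1 (Sum.elim ![0, 1, 0, 0] ![0, 0, 0, 0]) (.inl 1)) h
    have h2 : (0 : F) = 1 := h1
    exact zero_ne_one h2
  nmem := by
    rintro ⟨k, hk⟩
    have hk' : E1 F ^ k = E2 F := hk
    -- `E1` has order three
    have h3 : E1 F ^ (3 : ℤ) = 1 := by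
      have : E1 F ^ 3 = 1 := ext_H8 fun x => f1_cube x
      exact_mod_cast this
    have hdm := Int.emod_add_mul_ediv k 3
    rw [← hdm, zpow_add, zpow_mul, h3, one_zpow, mul_one] at hk'
    have h4 : k % 3 = 0 ∨ k % 3 = 1 ∨ k % 3 = 2 := by omega
    rcases h4 with h4 | h4 | h4
    · rw [h4, zpow_zero] at hk'
      have h1 := congrArg (fun g : ↥(H8 F) => g.1 (Sum.elim ![0, 0, 1, 0] ![0, 0, 0, 0]) (.inl 3)) hk'
      have h2 : (0 : F) = 1 - 0 := h1
      rw [sub_zero] at h2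
      exact zero_ne_one h2
    · rw [h4, zpow_one] at hk'
      have h1 := congrArg (fun g : ↥(H8 F) => g.1 (Sum.elim ![0, 1, 0, 0] ![0, 0, 0, 0]) (.inl 1)) hk'
      have h2 : (0 : F) = 1 := h1
      exact zero_ne_one h2
    · have e2 : E1 F ^ (2 : ℤ) = E1 F * E1 F := by
        have : E1 F ^ 2 = E1 F * E1 F := pow_two _
        exact_mod_cast this
      rw [h4, e2] at hk'
      have h1 := congrArg (fun g : ↥(H8 F) => g.1 (Sum.elim ![0, 1, 0, 0] ![0, 0, 0, 0]) (.inr 0)) hk'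
      have h2 : (0 : F) - 0 + (0 + 1 - 0 + 0) = 0 := h1
      rw [sub_zero, zero_add, zero_add, sub_zero, add_zero] at h2
      exact one_ne_zero h2

/-! ### the fixed points of `xt hG τ` -/

/-- the semisimilarity of an octonion automorphism -/
def gG (g : ↥(H8 F)) : G8 F := gamO (plusForm 4 F) ⟨g.1, g.2.1⟩

theorem gG_apply (g : ↥(H8 F)) (x : V8 F) : (gG g).1 x = g.1 x := rfl

theorem gG_tri (g : ↥(H8 F)) : TriS (gG g) (gG g) (gG g) := g.2.2

/-- elements of order three of `O` are in `E` -/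
theorem mem_E_of_cube (hG : Good (plusForm 4 F)) {g : V8 F ≃ₗ[F] V8 F} (hg : g ∈ O (plusForm 4 F)) (h3 : g ^ 3 = 1) :
    g ∈ E (plusForm 4 F) := by
  have h1 := H206.OrthBal.sq_mem_E hG (mul_mem hg hg)
  have h2 : g * g * (g * g) = g := by
    calc g * g * (g * g) = g ^ 3 * g := by rw [pow_three]; simp only [mul_assoc]
      _ = g := by rw [h3, one_mul]
  rwa [h2] at h1

theorem mem_AutD_of {τ : G8 F} (g : ↥(H8 F)) (hE : g.1 ∈ E (plusForm 4 F))
    (hc : ∀ x, g.1 (τ.1 x) = τ.1 (g.1 x)) : g.1 ∈ AutD τ := by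
  refine mem_AutD.2 ⟨hE, fun u w => ?_⟩
  have inv_apply : ∀ x : V8 F, τ⁻¹.1 (τ.1 x) = x := fun x => τ.1.symm_apply_apply x
  have apply_inv : ∀ x : V8 F, τ.1 (τ⁻¹.1 x) = x := fun x => τ.1.apply_symm_apply x
  have hc' : ∀ x, g.1 (τ⁻¹.1 x) = τ⁻¹.1 (g.1 x) := fun x => by
    have h1 := hc (τ⁻¹.1 x)
    rw [apply_inv] at h1
    rw [h1, inv_apply]
  have ho : ∀ x, g.1 (oconj x) = oconj (g.1 x) := fun x => aut_oconj (gG_tri g) x
  rw [dia, dia, g.2.2, hc', hc, ho, ho]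

/-- the class of an element of order three -/
def cl (hG : Good (plusForm 4 F)) (g : ↥(H8 F)) (h3 : g ^ 3 = 1) : ↥(E (plusForm 4 F)) :=
  ⟨g.1, mem_E_of_cube hG g.2.1 (congrArg Subtype.val h3)⟩

theorem eq_of_mk (hG : Good (plusForm 4 F)) {g h : ↥(H8 F)} {g' h' : ↥(E (plusForm 4 F))} (hg : g'.1 = g.1)
    (hh : h'.1 = h.1) (e : (g' : P8 F) = (h' : P8 F)) : g = h := by
  obtain ⟨c, -, h1⟩ := sign_of_mk_eq hG e
  have h2 := h1 (one8 F)
  have h3 : g.1 (one8 F) = one8 F := aut_one (gG_tri g)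
  have h4 : h.1 (one8 F) = one8 F := aut_one (gG_tri h)
  rw [hg, hh, h3, h4] at h2
  have h5 : c = 1 := by
    have h6 : (c - 1) • one8 F = 0 := by rw [sub_smul, one_smul, ← h2, sub_self]
    rcases smul_eq_zero.1 h6 with h7 | h7
    · exact sub_eq_zero.1 h7
    · exfalso
      have h8 := norm_one8 (F := F)
      rw [h7, QuadraticMap.map_zero] at h8
      exact zero_ne_one h8
  refine ext_H8 fun x => ?_
  have h6 := h1 x
  rw [hg, hh, h5, one_smul] at h6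
  exact h6.symm

/-- a pair of octonion automorphisms gives a pair in `P8` -/
theorem pair_cl (hG : Good (plusForm 4 F)) {a b : ↥(H8 F)} (h : Pair3 a b) :
    Pair3 ((cl hG a h.ha : ↥(E (plusForm 4 F))) : P8 F) ((cl hG b h.hb : ↥(E (plusForm 4 F))) : P8 F) where
  ha := by
    have h0 := congrArg Subtype.val h.ha
    have h1 : cl hG a h.ha ^ 3 = 1 := Subtype.ext h0
    exact congrArg (QuotientGroup.mk' (Subgroup.center ↥(E (plusForm 4 F)))) h1
  hb := by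
    have h0 := congrArg Subtype.val h.hb
    have h1 : cl hG b h.hb ^ 3 = 1 := Subtype.ext h0
    exact congrArg (QuotientGroup.mk' (Subgroup.center ↥(E (plusForm 4 F)))) h1
  comm := by
    have h0 := congrArg Subtype.val h.comm
    have h1 : cl hG a h.ha * cl hG b h.hb = cl hG b h.hb * cl hG a h.ha := Subtype.ext h0
    exact congrArg (QuotientGroup.mk' (Subgroup.center ↥(E (plusForm 4 F)))) h1
  ne := fun h1 => h.ne (eq_of_mk hG (h := 1) (h' := 1) rfl rfl h1)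
  nmem := by
    rintro ⟨k, hk⟩
    have h1 : ((cl hG a h.ha ^ k : ↥(E (plusForm 4 F))) : P8 F) = ((cl hG b h.hb : ↥(E (plusForm 4 F))) : P8 F) := hk
    exact h.nmem ⟨k, eq_of_mk hG (g := a ^ k) (g' := cl hG a h.ha ^ k) (by
      rw [Subgroup.coe_zpow, Subgroup.coe_zpow]; rfl) rfl h1⟩

/-- a pair of octonion automorphisms commuting with `τ` gives a pair of fixed points of `xt hG τ` -/
theorem pair_fix (hG : Good (plusForm 4 F)) {τ : G8 F} (hτ : TriS τ τ τ) {a b : ↥(H8 F)} (h : Pair3 a b)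
    (ha : ∀ x, a.1 (τ.1 x) = τ.1 (a.1 x)) (hb : ∀ x, b.1 (τ.1 x) = τ.1 (b.1 x)) :
    ∃ a' b' : P8 F, Pair3 a' b' ∧ xt hG τ a' = a' ∧ xt hG τ b' = b' :=
  ⟨_, _, pair_cl hG h, (fixed_iff hG hτ _).2 ⟨_, rfl, mem_AutD_of a (cl hG a h.ha).2 ha⟩,
    (fixed_iff hG hτ _).2 ⟨_, rfl, mem_AutD_of b (cl hG b h.hb).2 hb⟩⟩

theorem fix_conj {G : Type*} [Group G] {α x y : MulAut G} (h : α * x * α⁻¹ = y) {a : G} (ha : y a = a) :
    x (α⁻¹ a) = α⁻¹ a := by
  rw [← h] at ha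
  have h2 : α (x (α⁻¹ a)) = a := ha
  apply α.injective
  rw [h2, MulAut.apply_inv_self]

theorem fix_inv {G : Type*} [Group G] {x : MulAut G} {a : G} (ha : x⁻¹ a = a) : x a = a := by
  have h4 := congrArg x ha
  rw [MulAut.apply_inv_self] at h4
  exact h4.symm

/-- **TRI-9**, for `xt hG τ`. -/
theorem pair_xt [Finite F] (hG : Good (plusForm 4 F)) {τ : G8 F} (hτ : TriS τ τ τ) (ho : τ ^ 3 = 1) :
    ∃ a' b' : P8 F, Pair3 a' b' ∧ xt hG τ a' = a' ∧ xt hG τ b' = b' := by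
  obtain ⟨σ, c, hs⟩ := τ.2
  obtain rfl := aut_mult hτ hs
  by_cases hσ1 : σ = RingEquiv.refl F
  · subst hσ1
    obtain ⟨t, ht⟩ := exists_gamO hs
    have htH : t.1 ∈ H8 F := ⟨t.2, fun u w => by
      have h1 := hτ u w
      rw [← ht] at h1
      exact h1⟩
    have hfin : Finite (V8 F ≃ₗ[F] V8 F) := by
      have : Finite (V8 F) := inferInstance
      exact DFunLike.finite _
    obtain ⟨a, b, hab, ha, hb⟩ := (pair_E (F := F)).exists_comm (t := ⟨t.1, htH⟩) (by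
      refine ext_H8 fun x => ?_
      have h1 : (τ ^ 3).1 x = x := by rw [ho]; rfl
      rw [← ht] at h1
      exact h1)
    refine pair_fix hG hτ hab (fun x => ?_) fun x => ?_
    · have h1 := congrArg (fun g : ↥(H8 F) => g.1 x) ha
      rw [← ht]
      exact h1
    · have h1 := congrArg (fun g : ↥(H8 F) => g.1 x) hb
      rw [← ht]
      exact h1
  · obtain ⟨N, hN, h⟩ := H752.SemiNormal.semi_normal hτ hs hσ1 ho
    obtain ⟨a', b', hab, ha, hb⟩ := pair_fix hG (tri_fG σ) (pair_E (F := F)) (f1_fG σ) (f2_fG σ)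
    have h1 := xt_conj hG τ hN
    rw [h] at h1
    exact ⟨(Psi (plusForm 4 F) N)⁻¹ a', (Psi (plusForm 4 F) N)⁻¹ b',
      hab.map ((Psi (plusForm 4 F) N)⁻¹).toMonoidHom ((Psi (plusForm 4 F) N)⁻¹).injective, fix_conj h1 ha,
      fix_conj h1 hb⟩

/-- **TRI-9**, for `PΩ₈⁺(F)`. -/
theorem pair_P8 [Finite F] (hG : Good (plusForm 4 F)) {x : MulAut (P8 F)}
    (hx : x ∉ (Psi (plusForm 4 F)).range) (ho : x ^ 3 = 1) : ∃ a b : P8 F, Pair3 a b ∧ x a = a ∧ x b = b := by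
  obtain ⟨α, τ, hτ, hτ3, h, v, hv0, hvv, hv⟩ := H198.TriCls.classify hG hx ho
  obtain ⟨a', b', hab, ha, hb⟩ := pair_xt hG hτ hτ3
  refine ⟨α⁻¹ a', α⁻¹ b', hab.map (α⁻¹).toMonoidHom (α⁻¹).injective, ?_⟩
  rcases h with h | h
  · exact ⟨fix_conj h ha, fix_conj h hb⟩
  · exact ⟨fix_inv (fix_conj h ha), fix_inv (fix_conj h hb)⟩

end Cfsg.Agent.H907.Tri9
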